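import Cfsg.Agent.H616.TI.Defs
import Cfsg.Agent.H616.FormMain
import Cfsg.Agent.H658.Major
import Cfsg.Agent.S0973

/-!
# S4821, CRIT: `k(B) ≤ |P|` from the criterion (helper978)
-/

set_option autoImplicit false

namespace Cfsg.Agent.H978.TI.Crit

open Subgroup Cfsg Cfsg.Agent.H616.TI

universe u

theorem result (h : GoalForm.{u}) : GoalCrit.{u} := by
  intro G _ _ p _ M hM P z hz hC B hB hD
  obtain ⟨hzP, hz1, hzc, hcr⟩ := hz
  have hPC : (P : Subgroup G) ≤ centralizer ({z} : Set G) := by
    intro x hx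
    exact mem_centralizer_singleton_iff.2 (mem_centralizer_iff.1 hzc x hx)
  have hCPC : centralizer ((P : Subgroup G) : Set G) ≤ centralizer ({z} : Set G) :=
    centralizer_le (Set.singleton_subset_iff.2 hzP)
  obtain ⟨b, -, hb⟩ := (S0973.result p M hM B hB P hD).1
  obtain ⟨f, -, hf, hfD, hfd⟩ := Cfsg.Agent.H658.exists_major hM hD hzP
    (fun w hw => (mem_centralizer_iff.1 hzc w hw).symm) hb
  have hord : ∃ k : ℕ, orderOf z = p ^ k := by
    obtain ⟨k, hk⟩ := (IsPGroup.iff_orderOf.1 P.isPGroup') ⟨z, hzP⟩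
    exact ⟨k, by rw [← hk, Subgroup.orderOf_mk]⟩
  generalize hCdef : centralizer ({z} : Set G) = C at *
  let Q : Sylow p C := P.subtype hPC
  have hQ : (Q : Subgroup C) = (P : Subgroup G).subgroupOf C := rfl
  have hQc : Nat.card (Q : Subgroup C) = Nat.card (P : Subgroup G) := by
    rw [hQ]
    exact Nat.card_congr (subgroupOfEquivOfLe hPC).toEquiv
  have hQn : (Q : Subgroup C).Normal := by
    refine ⟨fun x hx g => ?_⟩
    rw [hQ, mem_subgroupOf] at hx ⊢
    exact (mem_normalizer_iff.1 (hC g.2) _).1 hx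
  have hcen : centralizer ((Q : Subgroup C) : Set C) = (centralizer ((P : Subgroup G) : Set G)).subgroupOf C := by
    ext x
    rw [mem_subgroupOf, mem_centralizer_iff, mem_centralizer_iff]
    constructor
    · intro hx y hy
      exact congrArg Subtype.val (hx ⟨y, hPC hy⟩ hy)
    · intro hx y hy
      exact Subtype.ext (hx y hy)
  have key := h C p M hM Q hQn ?_ f hf.1
  · rw [hQc] at key
    exact Cfsg.Agent.H616.Form.card_le_of_formBd hM hord hCdef.symm hf hfd key
  · intro g hg hgc
    have h1 := hcr g g.2 (by rwa [Subgroup.orderOf_coe]) (fun h2 => hgc (by rw [hcen]; exact h2))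
    have h2 : ((Q : Subgroup C) ⊔ centralizer ((Q : Subgroup C) : Set C)).index = autIdx (P : Subgroup G) z := by
      rw [hcen, hQ, ← subgroupOf_sup hPC hCPC]
      unfold autIdx
      rw [hCdef]
      rfl
    have h3 : Nat.card ↥((Q : Subgroup C) ⊓ centralizer ({g} : Set C)) =
        Nat.card ↥((P : Subgroup G) ⊓ centralizer ({(g : G)} : Set G)) := by
      have h4 : (Q : Subgroup C) ⊓ centralizer ({g} : Set C) =
          ((P : Subgroup G) ⊓ centralizer ({(g : G)} : Set G)).subgroupOf C := by
        ext x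
        rw [mem_subgroupOf, mem_inf, mem_inf, hQ, mem_subgroupOf, mem_centralizer_singleton_iff,
          mem_centralizer_singleton_iff]
        exact and_congr Iff.rfl ⟨fun h5 => congrArg Subtype.val h5, fun h5 => Subtype.ext h5⟩
      rw [h4]
      exact Nat.card_congr (subgroupOfEquivOfLe (inf_le_left.trans hPC)).toEquiv
    rw [h2, h3, hQc]
    exact h1

end Cfsg.Agent.H978.TI.Crit
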